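import Mathlib
import Cfsg.Agent.Lib.Helper32.Scn.Tools

/-!
# S1904 package [M0a] (for helper32): `bigW X` abelian and inside a maximal `M`.
-/

set_option autoImplicit false

universe u

namespace Cfsg.Agent.Lib.Helper38.Scn

open Cfsg.Agent.Lib.Helper32.Scn

/-- The centre of `bigW X`, as a subgroup of `X`. -/
def zW (X : Type u) [Group X] : Subgroup X where
  carrier := {w | w ∈ bigW X ∧ ∀ w' ∈ bigW X, w * w' = w' * w}
  one_mem' := ⟨(bigW X).one_mem, fun w' _ => by simp⟩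
  mul_mem' := by
    rintro a b ⟨ha, ha2⟩ ⟨hb, hb2⟩
    refine ⟨(bigW X).mul_mem ha hb, fun w' hw' => ?_⟩
    calc a * b * w' = a * (b * w') := by group
      _ = a * (w' * b) := by rw [hb2 w' hw']
      _ = (a * w') * b := by group
      _ = (w' * a) * b := by rw [ha2 w' hw']
      _ = w' * (a * b) := by group
  inv_mem' := by
    rintro a ⟨ha, ha2⟩
    refine ⟨(bigW X).inv_mem ha, fun w' hw' => ?_⟩
    have h := ha2 w' hw'
    calc a⁻¹ * w' = a⁻¹ * (w' * a) * a⁻¹ := by group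
      _ = a⁻¹ * (a * w') * a⁻¹ := by rw [h]
      _ = w' * a⁻¹ := by group

theorem zW_aut {X : Type u} [Group X] (ψ : MulAut X) {w : X} (hw : w ∈ zW X) : ψ w ∈ zW X := by
  refine ⟨bigW_aut ψ hw.1, fun w' hw' => ?_⟩
  have h1 : ψ⁻¹ w' ∈ bigW X := bigW_aut ψ⁻¹ hw'
  have h2 := hw.2 _ h1
  have h3 := congrArg ψ h2
  simpa using h3

theorem zW_normal (X : Type u) [Group X] : (zW X).Normal := by
  constructor
  intro w hw g
  have h := zW_aut (MulAut.conj g) hw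
  simpa using h

/-- The squares of the elements of `zW X`. -/
def sqZW (X : Type u) [Group X] : Subgroup X where
  carrier := {d | ∃ z ∈ zW X, d = z * z}
  one_mem' := ⟨1, (zW X).one_mem, by simp⟩
  mul_mem' := by
    rintro _ _ ⟨a, ha, rfl⟩ ⟨b, hb, rfl⟩
    refine ⟨a * b, (zW X).mul_mem ha hb, ?_⟩
    have h := ha.2 b hb.1
    calc a * a * (b * b) = a * (a * b) * b := by group
      _ = a * (b * a) * b := by rw [h]
      _ = a * b * (a * b) := by group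
  inv_mem' := by
    rintro _ ⟨a, ha, rfl⟩
    exact ⟨a⁻¹, (zW X).inv_mem ha, by group⟩

theorem lemM0a : LemM0a.{u} := by
  intro X _ _ A φ h w hw hwV hwc
  classical
  have hw0 : w ∈ zW X := ⟨hw, hwc⟩
  have hw1 : w ≠ 1 := fun hc => hwV (hc ▸ (omZ X).one_mem)
  have hZne : zW X ≠ ⊥ := by
    intro hc
    rw [hc, Subgroup.mem_bot] at hw0
    exact hw1 hw0
  have hab := h.abel (zW X) (zW_normal X) (fun ψ _ b hb => zW_aut ψ hb)
    (fun a ha b hb => ha.2 b hb.1) hZne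
  have hww1 : w * w ≠ 1 := fun hc => hwV (hab.2 w hw0 hc)
  have hwwV : w * w ∈ omZ X := hw.1
  have hD : omZ X ≤ sqZW X := by
    apply h.omZ_le_of_mem (sqZW X) _ hwwV hww1 ⟨w, hw0, rfl⟩
    rintro _ ⟨z, hz, rfl⟩
    exact ⟨φ z, zW_aut φ hz, by rw [map_mul]⟩
  -- `bigW X ≤ zW X`
  have hWZ : bigW X ≤ zW X := by
    intro x hx
    obtain ⟨z, hz, hxz⟩ := hD hx.1
    have hzx : z * x = x * z := hz.2 x hx
    have ht : x * z⁻¹ ∈ bigW X := (bigW X).mul_mem hx ((bigW X).inv_mem hz.1)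
    have ht2 : (x * z⁻¹) * (x * z⁻¹) = 1 := by
      calc (x * z⁻¹) * (x * z⁻¹) = x * z⁻¹ * (x * z) * z⁻¹ * z⁻¹ := by group
        _ = x * z⁻¹ * (z * x) * z⁻¹ * z⁻¹ := by rw [hzx]
        _ = (x * x) * (z * z)⁻¹ := by group
        _ = 1 := by rw [hxz]; group
    have htV : x * z⁻¹ ∈ omZ X := h.inv _ ht2 ht.2
    have : x = (x * z⁻¹) * z := by group
    rw [this]
    exact (zW X).mul_mem (hab.1 htV) hz
  have hWab : ∀ a ∈ bigW X, ∀ b ∈ bigW X, a * b = b * a := fun a ha b hb => (hWZ ha).2 b hb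
  -- a maximal member
  let S : Set (Subgroup X) := {B | B.Normal ∧ (∀ ψ ∈ A, ∀ b ∈ B, ψ b ∈ B) ∧
    (∀ a ∈ B, ∀ b ∈ B, a * b = b * a) ∧ bigW X ≤ B}
  have hWS : bigW X ∈ S := ⟨bigW_normal, fun ψ _ b hb => bigW_aut ψ hb, hWab, le_rfl⟩
  obtain ⟨M, hWM, hM⟩ := (Set.toFinite S).exists_le_maximal hWS
  have hMS : M ∈ S := hM.prop
  refine ⟨M, ⟨h, hMS.1, hMS.2.1, hMS.2.2.1, ?_, hMS.2.2.2, ⟨w, hMS.2.2.2 hw, hwV⟩⟩⟩
  intro B hBn hBA hBab hMB
  exact hM.le_of_ge (show B ∈ S from ⟨hBn, hBA, hBab, hMS.2.2.2.trans hMB⟩) hMB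

end Cfsg.Agent.Lib.Helper38.Scn
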