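import Mathlib
import Cfsg.Agent.Lib.Helper32.Scn.Tools

/-!
# S1904 package [M0b] (for helper32): the homocyclic facts of `M`.
-/

set_option autoImplicit false

universe u

namespace Cfsg.Agent.Lib.Helper38.Scn

open Cfsg.Agent.Lib.Helper32.Scn

theorem card_range_mul_card_ker_aux {G H : Type*} [Group G] [Group H] (f : G →* H) :
    Nat.card f.range * Nat.card f.ker = Nat.card G := by
  rw [Subgroup.card_eq_card_quotient_mul_card_subgroup f.ker,
    Nat.card_congr (QuotientGroup.quotientKerEquivRange f).toEquiv]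

/-- `m ↦ m ^ k` on an abelian subgroup. -/
def powHomOn {X : Type u} [Group X] (M : Subgroup X) (hab : ∀ a ∈ M, ∀ b ∈ M, a * b = b * a)
    (k : ℕ) : ↥M →* ↥M where
  toFun m := ⟨m.1 ^ k, M.pow_mem m.2 k⟩
  map_one' := by ext; simp
  map_mul' a b := by
    ext
    have hc : Commute a.1 b.1 := hab a.1 a.2 b.1 b.2
    simp [hc.mul_pow]

theorem powHomOn_apply {X : Type u} [Group X] (M : Subgroup X)
    (hab : ∀ a ∈ M, ∀ b ∈ M, a * b = b * a) (k : ℕ) (m : ↥M) :
    ((powHomOn M hab k m : ↥M) : X) = (m : X) ^ k := rfl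

theorem lemM0b : LemM0b.{u} := by
  intro X _ _ A φ M c
  classical
  have h := c.b
  obtain ⟨m0, hm0, hm0V⟩ := c.ne
  have hMne : M ≠ ⊥ := by
    intro hc
    rw [hc, Subgroup.mem_bot] at hm0
    exact hm0V (hm0 ▸ (omZ X).one_mem)
  have hab := h.abel M c.nrm c.inv c.ab hMne
  have hex : ∃ n, ∀ m ∈ M, m ^ (2 ^ n) = 1 := by
    obtain ⟨N, hN⟩ := (IsPGroup.iff_card.mp h.hyp.two)
    exact ⟨N, fun m _ => by rw [← hN]; exact pow_card_eq_one'⟩
  obtain ⟨n, hn, hmin⟩ : ∃ n, (∀ m ∈ M, m ^ (2 ^ n) = 1) ∧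
      ∀ k < n, ¬ ∀ m ∈ M, m ^ (2 ^ k) = 1 :=
    ⟨Nat.find hex, Nat.find_spec hex, fun k hk => Nat.find_min hex hk⟩
  have hn2 : 2 ≤ n := by
    by_contra hlt
    apply hm0V
    apply hab.2 m0 hm0
    have h1 := hn m0 hm0
    have hd : 2 ^ n ∣ 2 := by
      have : n = 0 ∨ n = 1 := by omega
      rcases this with rfl | rfl <;> simp
    obtain ⟨k, hk⟩ := hd
    have : m0 ^ 2 = 1 := by rw [hk, pow_mul, h1, one_pow]
    rw [← pow_two]; exact this
  obtain ⟨m1, hm1, hm1ne⟩ : ∃ m ∈ M, m ^ (2 ^ (n - 1)) ≠ 1 := by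
    by_contra hc
    push Not at hc
    exact hmin (n - 1) (by omega) hc
  have hnn : 2 ^ n = 2 ^ (n - 1) * 2 := by
    rw [← pow_succ]; congr 1; omega
  -- the two homs
  let sq : ↥M →* ↥M := powHomOn M c.ab 2
  let pi : ↥M →* ↥M := powHomOn M c.ab (2 ^ (n - 1))
  -- kernel of squaring
  have hker : (sq.ker).map M.subtype = omZ X := by
    ext x
    constructor
    · rintro ⟨m, hm, rfl⟩
      apply hab.2 _ m.2
      have h1 : sq m = 1 := hm
      have h2 := congrArg (Subtype.val) h1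
      rw [powHomOn_apply] at h2
      rw [← pow_two]; simpa using h2
    · intro hx
      refine ⟨⟨x, hab.1 hx⟩, ?_, rfl⟩
      rw [SetLike.mem_coe, MonoidHom.mem_ker]
      ext
      rw [powHomOn_apply]
      simp only [Subgroup.coe_one]
      rw [pow_two]; exact hx.2
  -- image of pi
  have him : (pi.range).map M.subtype = omZ X := by
    apply le_antisymm
    · rintro x ⟨_, ⟨m, rfl⟩, rfl⟩
      apply hab.2 _ (pi m).2
      show ((pi m : ↥M) : X) * ((pi m : ↥M) : X) = 1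
      rw [powHomOn_apply, ← pow_two, ← pow_mul, ← hnn]
      exact hn _ m.2
    · have hv1 : m1 ^ (2 ^ (n - 1)) ∈ omZ X := by
        apply hab.2 _ (M.pow_mem hm1 _)
        rw [← pow_two, ← pow_mul, ← hnn]
        exact hn _ hm1
      apply h.omZ_le_of_mem _ _ hv1 hm1ne
      · exact ⟨pi ⟨m1, hm1⟩, ⟨⟨m1, hm1⟩, rfl⟩, rfl⟩
      · rintro _ ⟨_, ⟨m, rfl⟩, rfl⟩
        refine ⟨pi ⟨φ m.1, c.inv φ h.φmem _ m.2⟩, ⟨_, rfl⟩, ?_⟩
        show ((pi ⟨φ m.1, c.inv φ h.φmem _ m.2⟩ : ↥M) : X) = φ ((pi m : ↥M) : X)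
        rw [powHomOn_apply, powHomOn_apply, map_pow]
  have hinj : Function.Injective M.subtype := M.subtype_injective
  have hc1 : Nat.card sq.ker = 4 := by
    rw [← Subgroup.card_map_of_injective hinj, hker, h.Vcard]
  have hc2 : Nat.card pi.range = 4 := by
    rw [← Subgroup.card_map_of_injective hinj, him, h.Vcard]
  have e1 := card_range_mul_card_ker_aux sq
  have e2 := card_range_mul_card_ker_aux pi
  rw [hc1] at e1
  rw [hc2] at e2
  have hle : sq.range ≤ pi.ker := by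
    rintro _ ⟨u, rfl⟩
    rw [MonoidHom.mem_ker]
    ext
    show ((pi (sq u) : ↥M) : X) = 1
    rw [powHomOn_apply, powHomOn_apply, ← pow_mul, mul_comm, ← hnn]
    exact hn _ u.2
  have heq : sq.range = pi.ker := by
    apply Subgroup.eq_of_le_of_card_ge hle
    have : Nat.card pi.ker = Nat.card sq.range := by omega
    exact this.le
  refine ⟨n, ⟨c, hn2, hn, ?_, ?_⟩⟩
  · intro v hv
    rw [← him] at hv
    obtain ⟨_, ⟨m, rfl⟩, rfl⟩ := hv
    exact ⟨m.1, m.2, rfl⟩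
  · intro m hm hm1
    have hk : (⟨m, hm⟩ : ↥M) ∈ pi.ker := by
      rw [MonoidHom.mem_ker]
      ext
      rw [powHomOn_apply]
      exact hm1
    rw [← heq] at hk
    obtain ⟨u, hu⟩ := hk
    refine ⟨u.1, u.2, ?_⟩
    have h2 := congrArg (Subtype.val) hu
    rw [powHomOn_apply] at h2
    rw [← pow_two]; exact h2.symm

end Cfsg.Agent.Lib.Helper38.Scn
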